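import Mathlib
import Cfsg.Agent.Lib.TwoGroupTricks.SL2Natural

/-!
The natural module of the derived group of `SL₂(F)` and the even-weight module of an alternating group
of odd degree are irreducible and nontrivial.
-/

set_option autoImplicit false

open Matrix
open scoped MatrixGroups commutatorElement

namespace CfsgLib.TwoGroupTricks.NaturalModules

open CfsgLib.TwoGroupTricks.SL2Natural

section SL2

variable {F : Type*} [Field F]

local notation "M₂" => Matrix (Fin 2) (Fin 2) F

theorem mem_commutator_of_coe {A B : SL(2, F)} {g : SL(2, F)} (h : g * B * A = A * B) :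
    g ∈ _root_.commutator SL(2, F) := by
  have : g = ⁅A, B⁆ := by
    rw [commutatorElement_def, ← h]; group
  rw [this]
  exact Subgroup.commutator_mem_commutator (Subgroup.mem_top A) (Subgroup.mem_top B)

/-- The element `[x(1), y(1)]`. -/
def special (F : Type*) [Field F] : SL(2, F) := ⟨!![3, -1; 1, 0], by simp [det_fin_two_of]⟩

/-- A commutator without eigenvalue one. -/
theorem exists_special : ∃ g ∈ _root_.commutator SL(2, F), (g : M₂) = !![3, -1; 1, 0] := by
  refine ⟨special F,
    mem_commutator_of_coe (A := xM 1) (B := yM 1) ?_, rfl⟩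
  apply Subtype.ext
  simp only [Matrix.SpecialLinearGroup.coe_mul]
  ext i j; fin_cases i <;> fin_cases j <;> simp [special, xM, yM, Matrix.mul_apply] <;> norm_num

theorem xM_mem_commutator {s : Fˣ} (hs : (s : F) ^ 2 ≠ 1) (u : F) :
    xM u ∈ _root_.commutator SL(2, F) := by
  have hne : (s : F) ^ 2 - 1 ≠ 0 := sub_ne_zero.2 hs
  refine mem_commutator_of_coe (A := dM s) (B := xM (u / ((s : F) ^ 2 - 1))) ?_
  apply Subtype.ext
  simp only [Matrix.SpecialLinearGroup.coe_mul]
  ext i j; fin_cases i <;> fin_cases j <;> simp [xM, dM, Matrix.mul_apply]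
  field_simp
  ring

theorem yM_mem_commutator {s : Fˣ} (hs : (s : F) ^ 2 ≠ 1) (u : F) :
    yM u ∈ _root_.commutator SL(2, F) := by
  have h := Subgroup.Normal.conj_mem (inferInstance : (_root_.commutator SL(2, F)).Normal) _
    (xM_mem_commutator hs (-u)) nM
  rwa [← yM_mul_nM, mul_inv_cancel_right] at h

/-- An additive subgroup invariant under the derived group of `SL₂(F)` is trivial or everything. -/
theorem eq_bot_or_eq_top [Finite F] {S : AddSubgroup (Fin 2 → F)}
    (hS : ∀ g ∈ _root_.commutator SL(2, F), ∀ v ∈ S, (g : M₂).mulVec v ∈ S) : S = ⊥ ∨ S = ⊤ := by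
  refine or_iff_not_imp_left.2 fun hne => ?_
  obtain ⟨v, hv, hv0⟩ : ∃ v ∈ S, v ≠ 0 := by
    by_contra! h
    exact hne ((AddSubgroup.eq_bot_iff_forall S).2 h)
  rw [eq_top_iff]
  rintro t -
  by_cases hex : ∃ s : Fˣ, (s : F) ^ 2 ≠ 1
  · obtain ⟨s, hs⟩ := hex
    have hx : ∀ w ∈ S, ∀ u, ![u * w 1, 0] ∈ S := by
      intro w hw u
      have := S.sub_mem (hS _ (xM_mem_commutator hs u) w hw) hw
      convert this using 1
      ext i; fin_cases i <;> simp [xM, Matrix.mulVec, dotProduct, Fin.sum_univ_two]
    have hy : ∀ w ∈ S, ∀ u, ![0, u * w 0] ∈ S := by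
      intro w hw u
      have := S.sub_mem (hS _ (yM_mem_commutator hs u) w hw) hw
      convert this using 1
      ext i; fin_cases i <;> simp [yM, Matrix.mulVec, dotProduct, Fin.sum_univ_two]
    have h10 : ![(1 : F), 0] ∈ S := by
      by_cases h1 : v 1 = 0
      · have h0 : v 0 ≠ 0 := fun h0 => hv0 (by ext i; fin_cases i <;> simp [h0, h1])
        have := hy v hv (v 0)⁻¹
        rw [inv_mul_cancel₀ h0] at this
        simpa using hx _ this 1
      · simpa [inv_mul_cancel₀ h1] using hx v hv (v 1)⁻¹
    have h01 : ![(0 : F), 1] ∈ S := by simpa using hy _ h10 1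
    have := S.add_mem (hx _ h01 (t 0)) (hy _ h10 (t 1))
    convert this using 1
    ext i; fin_cases i <;> simp
  · push Not at hex
    -- the field is the prime field with two or three elements
    have hsc : ∀ c : F, c = 0 ∨ c = 1 ∨ c = -1 := by
      intro c
      by_cases hc : c = 0
      · exact Or.inl hc
      · exact Or.inr (sq_eq_one_iff.1 (hex (Units.mk0 c hc)))
    have hsmul : ∀ w ∈ S, ∀ c : F, c • w ∈ S := by
      intro w hw c
      rcases hsc c with rfl | rfl | rfl
      · simp
      · simpa using hw
      · simpa using hw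
    obtain ⟨g, hg, hgc⟩ := exists_special (F := F)
    set w := (g : M₂).mulVec v with hw
    have hw' : w = ![3 * v 0 - v 1, v 0] := by
      rw [hw, hgc]; ext i; fin_cases i <;> simp [Matrix.mulVec, dotProduct, Fin.sum_univ_two, sub_eq_add_neg]
    set d := v 0 * v 0 - v 1 * (3 * v 0 - v 1) with hd
    have h6 : (2 : F) = 0 ∨ (3 : F) = 0 := by
      rcases hsc 2 with h | h | h
      · exact Or.inl h
      · exact absurd (show (1 : F) = 0 by linear_combination h) one_ne_zero
      · exact Or.inr (by linear_combination h)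
    have hd0 : d ≠ 0 := by
      intro h0
      apply hv0
      rcases hsc (v 0) with h | h | h <;> rcases hsc (v 1) with h' | h' | h'
      all_goals first
        | (ext i; fin_cases i <;> (first | exact h | exact h'); done)
        | (exfalso; rw [hd, h, h'] at h0; norm_num at h0; done)
        | (exfalso; rw [hd, h, h'] at h0; refine one_ne_zero (α := F) ?_
           rcases h6 with h2 | h3 <;> first
             | linear_combination h0
             | linear_combination -h0
             | linear_combination h0 - h2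
             | linear_combination -h0 - h2
             | linear_combination h0 + h2
             | linear_combination -h0 + h2
             | linear_combination h0 - h3
             | linear_combination -h0 - h3
             | linear_combination h0 + h3
             | linear_combination -h0 + h3
             | linear_combination h0 - 2 * h2
             | linear_combination -h0 + 2 * h2
             | linear_combination h0 - 2 * h3
             | linear_combination -h0 + 2 * h3
             | linear_combination -h0 + 3 * h2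
             | linear_combination h0 - 3 * h2)
    have := S.add_mem (hsmul v hv ((t 0 * v 0 - t 1 * (3 * v 0 - v 1)) / d))
      (hsmul w (hS g hg v hv) ((t 1 * v 0 - t 0 * v 1) / d))
    convert this using 1
    rw [hw']
    ext i
    fin_cases i <;> simp <;> field_simp <;> rw [hd] <;> ring

/-- The natural module is nontrivial for the derived group. -/
theorem exists_moved : ∃ g ∈ _root_.commutator SL(2, F), (g : M₂).mulVec ![1, 0] ≠ ![1, 0] := by
  obtain ⟨g, hg, hgc⟩ := exists_special (F := F)
  refine ⟨g, hg, fun h => ?_⟩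
  have := congrFun h 1
  simp [hgc, Matrix.mulVec, dotProduct, Fin.sum_univ_two] at this

end SL2

section Perm

open Equiv

variable {n : ℕ}

theorem exists_alternating_map {a b a' b' : Fin n} (h : a ≠ b) (h' : a' ≠ b') :
    ∃ σ ∈ alternatingGroup (Fin n), (σ a = a' ∧ σ b = b') ∨ (σ a = b' ∧ σ b = a') := by
  set τ := Equiv.swap a a'
  set π := Equiv.swap (τ b) b' * τ with hπ
  have hta : τ a = a' := Equiv.swap_apply_left a a'
  have ha : π a = a' := by
    rw [hπ, Perm.mul_apply, hta]
    refine Equiv.swap_apply_of_ne_of_ne (fun e => h ?_) h'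
    exact τ.injective (hta.trans e)
  have hb : π b = b' := by rw [hπ, Perm.mul_apply, Equiv.swap_apply_left]
  rcases Int.units_eq_one_or (Perm.sign π) with h1 | h1
  · exact ⟨π, h1, Or.inl ⟨ha, hb⟩⟩
  · refine ⟨π * Equiv.swap a b, ?_, Or.inr ⟨?_, ?_⟩⟩
    · rw [Perm.mem_alternatingGroup, map_mul, h1, Perm.sign_swap h]; rfl
    · rw [Perm.mul_apply, Equiv.swap_apply_left, hb]
    · rw [Perm.mul_apply, Equiv.swap_apply_right, ha]

/-- The standard even vector supported on two points. -/
def pairVec (a b : Fin n) : Fin n → ZMod 2 := Pi.single a 1 + Pi.single b 1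

theorem pairVec_comp (σ : Perm (Fin n)) (a b : Fin n) :
    (fun i => pairVec a b (σ⁻¹ i)) = pairVec (σ a) (σ b) := by
  funext i
  simp [pairVec, Pi.single_apply, Equiv.symm_apply_eq]

/-- An additive set of even vectors invariant under the alternating group of odd degree is trivial or
consists of all even vectors. -/
theorem even_eq_bot_or_all (hn : Odd n) {S : AddSubgroup (Fin n → ZMod 2)}
    (hev : ∀ v ∈ S, ∑ i, v i = 0)
    (hS : ∀ σ ∈ alternatingGroup (Fin n), ∀ v ∈ S, (fun i => v (σ⁻¹ i)) ∈ S) :
    (∀ v ∈ S, v = 0) ∨ ∀ v : Fin n → ZMod 2, ∑ i, v i = 0 → v ∈ S := by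
  refine or_iff_not_imp_left.2 fun hne => ?_
  push Not at hne
  obtain ⟨v, hv, hv0⟩ := hne
  have h2 : ∀ x : ZMod 2, x = 0 ∨ x = 1 := by decide
  obtain ⟨i, hi⟩ : ∃ i, v i ≠ 0 := by
    by_contra! h; exact hv0 (funext h)
  have hi1 : v i = 1 := (h2 _).resolve_left hi
  obtain ⟨j, hj⟩ : ∃ j, v j = 0 := by
    by_contra! h
    have h1 := hev v hv
    rw [Finset.sum_congr rfl fun j _ => (h2 (v j)).resolve_left (h j)] at h1
    simp at h1
    exact Nat.not_odd_iff_even.2 (ZMod.natCast_eq_zero_iff_even.1 h1) hn
  have hij : i ≠ j := fun e => hi (e ▸ hj)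
  obtain ⟨k, hki, hkj⟩ : ∃ k : Fin n, k ≠ i ∧ k ≠ j := by
    have h2' : 2 < n := by
      have := i.2; have := j.2
      have : n ≠ 2 := by rintro rfl; exact absurd hn (by decide)
      have : (i : ℕ) ≠ j := fun e => hij (Fin.ext e)
      omega
    by_contra! h
    have : (Finset.univ : Finset (Fin n)) ⊆ {i, j} := fun k _ => by
      by_cases hki : k = i
      · simp [hki]
      · simp [h k hki]
    have := Finset.card_le_card this
    rw [Finset.card_univ, Fintype.card_fin] at this
    have := Finset.card_le_two (a := i) (b := j)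
    omega
  set σ := Equiv.swap i j * Equiv.swap j k
  have hσ : σ ∈ alternatingGroup (Fin n) := by
    rw [Perm.mem_alternatingGroup, map_mul, Perm.sign_swap hij, Perm.sign_swap hkj.symm]; rfl
  have hpair : ∃ a b, a ≠ b ∧ pairVec a b ∈ S := by
    have hd := S.sub_mem (hS σ hσ v hv) hv
    have hval : ∀ l, ((fun l => v (σ⁻¹ l)) - v) l = v (Equiv.swap j k (Equiv.swap i j l)) - v l := by
      intro l; simp [σ, Equiv.swap_inv]
    rcases h2 (v k) with hk | hk
    · refine ⟨i, j, hij, ?_⟩
      convert hd using 1
      funext l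
      rw [hval]
      by_cases h1 : l = i
      · subst h1; simp [pairVec, Equiv.swap_apply_def, hij, hki, hki.symm, hk, hi1]
      by_cases h1' : l = j
      · subst h1'; simp [pairVec, Equiv.swap_apply_def, hij.symm, hkj, hkj.symm, hi1, hj, hki.symm, hij]
      by_cases h1'' : l = k
      · subst h1''; simp [pairVec, Equiv.swap_apply_def, hki, hkj, hk, hj]
      simp [pairVec, Equiv.swap_apply_def, h1, h1', h1'']
    · refine ⟨j, k, hkj.symm, ?_⟩
      convert hd using 1
      funext l
      rw [hval]
      by_cases h1 : l = i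
      · subst h1; simp [pairVec, Equiv.swap_apply_def, hij, hki, hki.symm, hk, hi1]
      by_cases h1' : l = j
      · subst h1'; simp [pairVec, Equiv.swap_apply_def, hij.symm, hkj, hkj.symm, hi1, hj, hki.symm, hij]
      by_cases h1'' : l = k
      · subst h1''; simp [pairVec, Equiv.swap_apply_def, hki, hkj, hk, hj]
      simp [pairVec, Equiv.swap_apply_def, h1, h1', h1'']
  obtain ⟨a, b, hab, habS⟩ := hpair
  have hall : ∀ a' b' : Fin n, a' ≠ b' → pairVec a' b' ∈ S := by
    intro a' b' h'
    obtain ⟨τ, hτ, ⟨e1, e2⟩ | ⟨e1, e2⟩⟩ := exists_alternating_map hab h'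
    · have := hS τ hτ _ habS
      rwa [pairVec_comp, e1, e2] at this
    · have := hS τ hτ _ habS
      rw [pairVec_comp, e1, e2] at this
      rwa [pairVec, add_comm]
  intro t ht
  have hsum : t = ∑ l ∈ Finset.univ.filter (fun l => l ≠ i ∧ t l = 1), pairVec l i := by
    funext m
    rw [Finset.sum_apply]
    simp only [pairVec, Pi.add_apply, Pi.single_apply, Finset.sum_add_distrib,
      Finset.sum_ite_eq, Finset.mem_filter, Finset.mem_univ, true_and]
    by_cases hm : m = i
    · subst hm
      rw [if_neg (by simp), zero_add]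
      simp only [↓reduceIte]
      rw [Finset.sum_filter]
      have : ∀ l, (if l ≠ m ∧ t l = 1 then (1 : ZMod 2) else 0) = t l - (if l = m then t l else 0) := by
        intro l
        by_cases hl : l = m
        · simp [hl]
        · rcases h2 (t l) with e | e <;> simp [hl, e]
      rw [Finset.sum_congr rfl fun l _ => this l, Finset.sum_sub_distrib, ht,
        Finset.sum_ite_eq' _ m, if_pos (Finset.mem_univ _), zero_sub, ZMod.neg_eq_self_mod_two]
    · rcases h2 (t m) with e | e <;> simp [hm, e]
  rw [hsum]
  exact S.sum_mem fun l hl => hall l i (Finset.mem_filter.1 hl).2.1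

/-- The even-weight module is nontrivial for the alternating group. -/
theorem exists_moved_perm {m : ℕ} (hm : m ≠ 0) :
    ∃ σ ∈ alternatingGroup (Fin (2 * m + 1)), ∃ v : Fin (2 * m + 1) → ZMod 2,
      ∑ i, v i = 0 ∧ (fun i => v (σ⁻¹ i)) ≠ v := by
  let a : Fin (2 * m + 1) := ⟨0, by omega⟩
  let b : Fin (2 * m + 1) := ⟨1, by omega⟩
  let c : Fin (2 * m + 1) := ⟨2, by omega⟩
  have hab : a ≠ b := by simp [a, b, Fin.ext_iff]
  have hbc : b ≠ c := by simp [b, c, Fin.ext_iff]
  have hac : a ≠ c := by simp [a, c, Fin.ext_iff]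
  refine ⟨Equiv.swap a b * Equiv.swap b c, ?_, pairVec a b, ?_, fun h => ?_⟩
  · rw [Perm.mem_alternatingGroup, map_mul, Perm.sign_swap hab, Perm.sign_swap hbc]; rfl
  · simp [pairVec, Finset.sum_add_distrib, Pi.single_apply]
    decide
  · rw [pairVec_comp] at h
    have := congrFun h c
    simp [pairVec, Pi.single_apply, Equiv.swap_apply_def, hab, hab.symm, hbc, hbc.symm, hac, hac.symm] at this

end Perm

end CfsgLib.TwoGroupTricks.NaturalModules
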