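import Cfsg.Agent.Lib.TwoGroupTricks.BaumannNormal
import Cfsg.Agent.Lib.TwoGroupTricks.NaturalModules
import Cfsg.Agent.Lib.Cores.PCore
import Cfsg.Agent.Lib.Transfer.Residual

/-!
Basic facts about Baumann blocks: the module `W/Z` is irreducible and nontrivial, `W_E = [W, E]` lies in
the centre of `O_p(G)` and is moved by the Thompson subgroup.
-/

set_option autoImplicit false

namespace CfsgLib.TwoGroupTricks

open Cfsg
open scoped commutatorElement

variable {G : Type*} [Group G] [Finite G] {p : ℕ} [Fact p.Prime]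

/-- `E` acts irreducibly and nontrivially on the section `W/Z`. -/
structure IrreducibleSection (E W Z : Subgroup G) : Prop where
  normalizes : E ≤ Subgroup.normalizer (W : Set G)
  le : Z ≤ W
  irred : ∀ U : Subgroup G, Z ≤ U → U ≤ W → E ≤ Subgroup.normalizer (U : Set G) → U = Z ∨ U = W
  nontriv : ¬ ⁅W, E⁆ ≤ Z

omit [Finite G] [Fact p.Prime] in
/-- Irreducibility read off from a linearisation. -/
theorem irreducibleSection_of_hom {A : Type*} [AddCommGroup A] {E W Z : Subgroup G}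
    (hEW : E ≤ Subgroup.normalizer (W : Set G)) (hZW : Z ≤ W) (ψ : W →* Multiplicative A)
    (hker : ∀ u : W, ψ u = 1 ↔ (u : G) ∈ Z) (act : E → A → A)
    (hact : ∀ (e : E) (u : W), ∃ w : W, (w : G) = (e : G) * (u : G) * (e : G)⁻¹ ∧
      Multiplicative.toAdd (ψ w) = act e (Multiplicative.toAdd (ψ u)))
    (hdich : ∀ S : AddSubgroup A, (∀ a ∈ S, ∃ u, Multiplicative.toAdd (ψ u) = a) →
      (∀ (e : E), ∀ a ∈ S, act e a ∈ S) → (∀ a ∈ S, a = 0) ∨ ∀ u, Multiplicative.toAdd (ψ u) ∈ S)
    (hmove : ∃ (e : E) (u : W), act e (Multiplicative.toAdd (ψ u)) ≠ Multiplicative.toAdd (ψ u)) :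
    IrreducibleSection E W Z := by
  refine ⟨hEW, hZW, fun U hZU hUW hEU => ?_, fun h => ?_⟩
  · let S : AddSubgroup A :=
      { carrier := {a | ∃ u : W, (u : G) ∈ U ∧ Multiplicative.toAdd (ψ u) = a}
        zero_mem' := ⟨1, U.one_mem, by simp⟩
        add_mem' := by
          rintro _ _ ⟨u, hu, rfl⟩ ⟨v, hv, rfl⟩
          exact ⟨u * v, U.mul_mem hu hv, by simp⟩
        neg_mem' := by
          rintro _ ⟨u, hu, rfl⟩
          exact ⟨u⁻¹, U.inv_mem hu, by simp⟩ }
    rcases hdich S (by rintro _ ⟨u, -, rfl⟩; exact ⟨u, rfl⟩) (fun e a ⟨u, hu, hua⟩ => by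
        obtain ⟨w, hw, hψ⟩ := hact e u
        exact ⟨w, hw ▸ (Subgroup.mem_normalizer_iff.1 (hEU e.2) _).1 hu, hua ▸ hψ⟩) with h | h
    · refine Or.inl (le_antisymm (fun x hx => ?_) hZU)
      exact (hker ⟨x, hUW hx⟩).1 (Multiplicative.toAdd.injective (h _ ⟨⟨x, hUW hx⟩, hx, rfl⟩))
    · refine Or.inr (le_antisymm hUW fun x hx => ?_)
      obtain ⟨u, hu, hux⟩ := h ⟨x, hx⟩
      have : u⁻¹ * ⟨x, hx⟩ ∈ ψ.ker := by
        rw [MonoidHom.mem_ker, map_mul, map_inv, Multiplicative.toAdd.injective hux, inv_mul_cancel]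
      have h1 : ((u⁻¹ * ⟨x, hx⟩ : W) : G) ∈ U := hZU ((hker _).1 this)
      simpa using U.mul_mem hu h1
  · obtain ⟨e, u, hne⟩ := hmove
    obtain ⟨w, hw, hψ⟩ := hact e u
    have h1 : ((u * w⁻¹ : W) : G) ∈ Z := by
      have := h (Subgroup.commutator_mem_commutator u.2 e.2)
      rw [commutatorElement_def] at this
      simpa [hw, mul_assoc] using this
    rw [← hker, map_mul, map_inv, mul_inv_eq_one] at h1
    exact hne (by rw [← hψ, h1])

theorem ne_bot_of_block {T : Subgroup G} {E : Subgroup G} (hE : IsBaumannBlock p T E) : E ≠ ⊥ :=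
  fun h => hE.2.2.2.1 (by rw [h, Subgroup.commutator_bot_left])

omit [Fact p.Prime] in
theorem pResidual_eq_top {E : Subgroup G} (hres : pResidualOf p E = E) : pResidual p E = ⊤ := by
  refine Subgroup.map_injective E.subtype_injective ?_
  rw [← MonoidHom.range_eq_map, Subgroup.range_subtype]
  exact hres

/-- The module of a block is irreducible. -/
theorem irreducibleSection_of_block {T : Subgroup G} {E : Subgroup G} (hE : IsBaumannBlock p T E) :
    IrreducibleSection E (omegaOneCenter p (pCoreOf p E))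
      (omegaOneCenter p (pCoreOf p E) ⊓ Subgroup.centralizer (E : Set G)) := by
  rcases hE.2.2.2.2 with ⟨F, iF, iFt, n, hF, -, hact, -⟩ | ⟨-, m, hiso, hact, -⟩
  · obtain ⟨hEW, hle, ρ, ψ, hR, hsurj, hker, hac⟩ := hact
    refine irreducibleSection_of_hom hEW hle ψ hker
      (fun e a => ((ρ e : Matrix.SpecialLinearGroup (Fin 2) F) : Matrix (Fin 2) (Fin 2) F).mulVec a)
      hac (fun S _ hS => ?_) ?_
    · rcases NaturalModules.eq_bot_or_eq_top (S := S) (fun g hg v hv => by
          rw [← hR] at hg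
          obtain ⟨e, rfl⟩ := hg
          exact hS e v hv) with h | h
      · exact Or.inl fun a ha => by simpa [h] using ha
      · exact Or.inr fun u => h ▸ AddSubgroup.mem_top _
    · obtain ⟨g, hg, hgne⟩ := NaturalModules.exists_moved (F := F)
      rw [← hR] at hg
      obtain ⟨e, rfl⟩ := hg
      obtain ⟨u, hu⟩ := hsurj (Multiplicative.ofAdd ![1, 0])
      exact ⟨e, u, by rw [hu]; exact hgne⟩
  · obtain ⟨hEW, hle, ρ, ψ, hR, heven, hsurj, hker, hac⟩ := hact
    have hm : m ≠ 0 := by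
      rintro rfl
      obtain ⟨φ⟩ := hiso
      have h1 : Subsingleton (↥(alternatingGroup (Fin (2 * 0 + 1)))) :=
        ⟨fun a b => Subtype.ext (Equiv.ext fun i => Subsingleton.elim (α := Fin 1) _ _)⟩
      have hsub : Subsingleton (↥E ⧸ pCore p ↥E) := φ.toEquiv.subsingleton
      have htop : pCore p ↥E = ⊤ := (Subgroup.eq_top_iff' _).2 fun x =>
        (QuotientGroup.eq_one_iff x).1 (Subsingleton.elim _ _)
      have hp : IsPGroup p E := CfsgLib.Cores.pCore_eq_top_iff.1 htop
      have hbot : pResidual p E ≤ ⊥ :=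
        CfsgLib.Transfer.pResidual_le_of_isPGroup (N := (⊥ : Subgroup E)) (hp.to_quotient ⊥)
      rw [pResidual_eq_top hE.1, top_le_iff] at hbot
      apply ne_bot_of_block hE
      exact (Subgroup.eq_bot_iff_forall _).2 fun x hx => by
        have h2 : (⟨x, hx⟩ : E) ∈ (⊥ : Subgroup E) := by rw [hbot]; exact Subgroup.mem_top _
        exact congrArg Subtype.val (Subgroup.mem_bot.1 h2)
    refine irreducibleSection_of_hom hEW hle ψ hker
      (fun e a i => a ((ρ e)⁻¹ i))
      (fun e u => ?_) (fun S hSW hS => ?_) ?_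
    · obtain ⟨w, hw, hψ⟩ := hac e u
      exact ⟨w, hw, funext hψ⟩
    · rcases NaturalModules.even_eq_bot_or_all ⟨m, rfl⟩ (S := S) (fun v hv => by
          obtain ⟨u, rfl⟩ := hSW v hv; exact heven u) (fun σ hσ v hv => by
          rw [← hR] at hσ
          obtain ⟨e, rfl⟩ := hσ
          exact hS e v hv) with h | h
      · exact Or.inl h
      · exact Or.inr fun u => h _ (heven u)
    · obtain ⟨σ, hσ, v, hv, hne⟩ := NaturalModules.exists_moved_perm hm
      rw [← hR] at hσ
      obtain ⟨e, rfl⟩ := hσ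
      obtain ⟨u, hu⟩ := hsurj v hv
      exact ⟨e, u, by rw [hu]; exact hne⟩

omit [Finite G] [Fact p.Prime] in
theorem omegaOneCenter_le (X : Subgroup G) :
    omegaOneCenter p X ≤ X ⊓ Subgroup.centralizer (X : Set G) :=
  omegaOne_subset_self _

omit [Fact p.Prime] in
theorem normalizer_le_normalizer_omegaOneCenter (X : Subgroup G) :
    Subgroup.normalizer (X : Set G) ≤ Subgroup.normalizer (omegaOneCenter p X : Set G) := fun g hg =>
  normalizer_le_normalizer_omegaOne' _ (normalizer_inf_le ⟨hg, normalizer_le_normalizer_centralizer' X hg⟩)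

omit [Fact p.Prime] in
theorem normalizer_le_normalizer_commutator_left {E W : Subgroup G} {g : G}
    (hE : g ∈ Subgroup.normalizer (E : Set G)) (hW : g ∈ Subgroup.normalizer (W : Set G)) :
    g ∈ Subgroup.normalizer ((⁅W, E⁆ : Subgroup G) : Set G) := by
  refine Subgroup.mem_normalizer_fintype fun z hz => ?_
  have : ⁅W, E⁆ ≤ (⁅W, E⁆).comap (MulAut.conj g).toMonoidHom := by
    rw [Subgroup.commutator_le]
    intro w hw e he
    show (MulAut.conj g) ⁅w, e⁆ ∈ ⁅W, E⁆
    rw [map_commutatorElement]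
    exact Subgroup.commutator_mem_commutator ((Subgroup.mem_normalizer_iff.1 hW w).1 hw)
      ((Subgroup.mem_normalizer_iff.1 hE e).1 he)
  exact this hz

/-- A `p`-group `W` contained in `[W, P]` for a `p`-group `P` normalising it is trivial. -/
theorem eq_bot_of_le_commutator {W P : Subgroup G} (hW : IsPGroup p W) (hP : IsPGroup p P)
    (hPW : P ≤ Subgroup.normalizer (W : Set G)) (h : W ≤ ⁅W, P⁆) : W = ⊥ := by
  set K := W ⊔ P
  have hK : IsPGroup p K := IsPGroup.to_sup_of_normal_left' hW hP hPW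
  haveI : Group.IsNilpotent K := hK.isNilpotent
  have hle : ∀ k, W.subgroupOf K ≤ Subgroup.lowerCentralSeries ⊤ k := by
    intro k
    induction k with
    | zero => simp [Subgroup.lowerCentralSeries_zero]
    | succ k ih =>
      rw [Subgroup.lowerCentralSeries_succ]
      refine le_trans (le_trans ?_ (Subgroup.commutator_mono ih (le_top : P.subgroupOf K ≤ ⊤))) le_rfl
      rw [← Subgroup.map_le_map_iff_of_injective K.subtype_injective, Subgroup.map_commutator,
        Subgroup.map_subgroupOf_eq_of_le le_sup_left, Subgroup.map_subgroupOf_eq_of_le le_sup_right]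
      exact h
  obtain ⟨n, hn⟩ := Subgroup.nilpotent_iff_lowerCentralSeries.1 (inferInstance : Group.IsNilpotent K)
  have := (hle n).trans hn.le
  rw [le_bot_iff, Subgroup.subgroupOf_eq_bot, disjoint_iff, inf_eq_left.2 le_sup_left] at this
  exact this

/-- Data of a block used repeatedly. -/
theorem block_module_facts {T : Subgroup G} {E : Subgroup G} (hE : IsBaumannBlock p T E) :
    ⁅⁅omegaOneCenter p (pCoreOf p E), E⁆, E⁆ = ⁅omegaOneCenter p (pCoreOf p E), E⁆ ∧
      ⁅omegaOneCenter p (pCoreOf p E), E⁆ ≤ omegaOneCenter p (pCoreOf p E) ∧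
      ⁅omegaOneCenter p (pCoreOf p E), E⁆ ≠ ⊥ ∧
      ⁅omegaOneCenter p (pCoreOf p E), E⁆ ⊔ (omegaOneCenter p (pCoreOf p E) ⊓ Subgroup.centralizer (E : Set G)) =
        omegaOneCenter p (pCoreOf p E) := by
  obtain ⟨hEW, hle, hirr, hnt⟩ := irreducibleSection_of_block hE
  set W := omegaOneCenter p (pCoreOf p E)
  set Z := W ⊓ Subgroup.centralizer (E : Set G)
  have hWE : ⁅W, E⁆ ≤ W := CfsgLib.CoprimeAction.commutator_le_left hEW
  have hEN : E ≤ Subgroup.normalizer ((⁅W, E⁆ : Subgroup G) : Set G) := fun e he =>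
    normalizer_le_normalizer_commutator_left (Subgroup.le_normalizer he) (hEW he)
  have hEZ : E ≤ Subgroup.normalizer (Z : Set G) := fun e he =>
    normalizer_inf_le ⟨hEW he, normalizer_le_normalizer_centralizer' _ (Subgroup.le_normalizer he)⟩
  have hsup : ⁅W, E⁆ ⊔ Z = W := (hirr _ le_sup_right (sup_le hWE inf_le_left) fun e he =>
    Subgroup.mem_normalizer_fintype fun z hz => by
      have : ⁅W, E⁆ ⊔ Z ≤ (⁅W, E⁆ ⊔ Z).comap (MulAut.conj e).toMonoidHom :=
        sup_le (fun y hy => Subgroup.mem_sup_left ((Subgroup.mem_normalizer_iff.1 (hEN he) y).1 hy))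
          (fun y hy => Subgroup.mem_sup_right ((Subgroup.mem_normalizer_iff.1 (hEZ he) y).1 hy))
      exact this hz).resolve_left fun h => hnt (le_sup_left.trans h.le)
  refine ⟨le_antisymm (Subgroup.commutator_mono hWE le_rfl) (Subgroup.commutator_le.2 fun w hw e he => ?_),
    hWE, fun h => hnt (by rw [h]; exact bot_le), hsup⟩
  have hcomm : ⁅W, E⁆ ≤ Subgroup.normalizer (Z : Set G) := fun y hy => by
    refine Subgroup.mem_normalizer_fintype fun z hz => ?_
    have hyz : z * y = y * z := (omegaOneCenter_le _ (hWE hy)).2 z (omegaOneCenter_le _ hz.1).1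
    rw [← hyz, mul_inv_cancel_right]; exact hz
  obtain ⟨y, hy, z, hz, rfl⟩ : ∃ y ∈ ⁅W, E⁆, ∃ z ∈ Z, y * z = w := by
    have hw' : w ∈ ((⁅W, E⁆ ⊔ Z : Subgroup G) : Set G) := by rw [hsup]; exact hw
    rw [Subgroup.coe_mul_of_left_le_normalizer_right _ _ hcomm] at hw'
    exact hw'
  have hze : z * e = e * z := (hz.2 e he).symm
  have : ⁅y * z, e⁆ = ⁅y, e⁆ := by
    rw [commutatorElement_def, commutatorElement_def, mul_assoc y z e, hze]
    group
  rw [this]
  exact Subgroup.commutator_mem_commutator hy he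

/-- A `p`-subgroup normalised by `E` meets `E` inside `O_p(E)`. -/
theorem inf_le_pCoreOf {P E : Subgroup G} (hP : IsPGroup p P) (hEP : E ≤ Subgroup.normalizer (P : Set G)) :
    P ⊓ E ≤ pCoreOf p E := by
  haveI : (P.comap E.subtype).Normal := ⟨fun x hx e => (Subgroup.mem_normalizer_iff.1 (hEP e.2) _).1 hx⟩
  intro x hx
  exact ⟨⟨x, hx.2⟩, CfsgLib.Cores.le_pCore (hP.comap_subtype (K := E)) hx.1, rfl⟩

theorem pCore_le_normalizer_block (T : Sylow p G) {E : Subgroup G} (hE : IsBaumannBlock p (T : Subgroup G) E) :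
    pCore p G ≤ Subgroup.normalizer (E : Set G) :=
  le_normalizer_of_block T hE.1 hE.2.1 (CfsgLib.Cores.isPGroup_pCore p G)
    (by rw [Subgroup.normalizer_eq_top]; exact le_top) (by rw [Subgroup.normalizer_eq_top]; exact le_top)

/-- `W_E` centralizes `O_p(G)`. -/
theorem commutator_pCore_eq_bot (T : Sylow p G) {E : Subgroup G} (hE : IsBaumannBlock p (T : Subgroup G) E) :
    ⁅⁅omegaOneCenter p (pCoreOf p E), E⁆, pCore p G⁆ = ⊥ := by
  obtain ⟨hEW, hle, hirr, hnt⟩ := irreducibleSection_of_block hE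
  obtain ⟨hWEE, hWW, hne, hsup⟩ := block_module_facts hE
  set W := omegaOneCenter p (pCoreOf p E)
  set Z := W ⊓ Subgroup.centralizer (E : Set G)
  set WE := ⁅W, E⁆
  set P := pCore p G
  have hPE := pCore_le_normalizer_block T hE
  have hEP : E ≤ Subgroup.normalizer (P : Set G) := by rw [Subgroup.normalizer_eq_top]; exact le_top
  have hPQ : P ≤ Subgroup.normalizer (pCoreOf p E : Set G) :=
    hPE.trans (CfsgLib.Cores.normalizer_le_normalizer_map_subtype E (pCore p E))
  have hPW : P ≤ Subgroup.normalizer (W : Set G) := hPQ.trans (normalizer_le_normalizer_omegaOneCenter _)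
  have hPWE : P ≤ Subgroup.normalizer (WE : Set G) := fun g hg =>
    normalizer_le_normalizer_commutator_left (hPE hg) (hPW hg)
  have hWEp : IsPGroup p WE :=
    ((CfsgLib.Cores.isPGroup_pCore p E).map E.subtype).to_le (hWW.trans ((omegaOneCenter_le _).trans inf_le_left))
  have hle1 : ⁅WE, P⁆ ≤ WE := CfsgLib.CoprimeAction.commutator_le_left hPWE
  have hEC : E ≤ Subgroup.normalizer ((⁅WE, P⁆ : Subgroup G) : Set G) := fun e he =>
    normalizer_le_normalizer_commutator_left (hEP he)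
      (normalizer_le_normalizer_commutator_left (Subgroup.le_normalizer he) (hEW he))
  have hEZ : E ≤ Subgroup.normalizer (Z : Set G) := fun e he =>
    normalizer_inf_le ⟨hEW he, normalizer_le_normalizer_centralizer' _ (Subgroup.le_normalizer he)⟩
  have hU := hirr (⁅WE, P⁆ ⊔ Z) le_sup_right (sup_le (hle1.trans hWW) inf_le_left)
    fun e he => Subgroup.mem_normalizer_fintype fun z hz => by
      have : ⁅WE, P⁆ ⊔ Z ≤ (⁅WE, P⁆ ⊔ Z).comap (MulAut.conj e).toMonoidHom :=
        sup_le (fun y hy => Subgroup.mem_sup_left ((Subgroup.mem_normalizer_iff.1 (hEC he) y).1 hy))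
          (fun y hy => Subgroup.mem_sup_right ((Subgroup.mem_normalizer_iff.1 (hEZ he) y).1 hy))
      exact this hz
  rcases hU with h | h
  · have h1 : ⁅⁅WE, P⁆, E⁆ = ⊥ := by
      rw [Subgroup.commutator_eq_bot_iff_le_centralizer]
      exact (le_sup_left.trans h.le).trans inf_le_right
    have h2 : ⁅⁅P, E⁆, WE⁆ = ⊥ := by
      rw [Subgroup.commutator_eq_bot_iff_le_centralizer]
      have hPE' : ⁅P, E⁆ ≤ P ⊓ E := le_inf (CfsgLib.CoprimeAction.commutator_le_left hEP)
        (by rw [Subgroup.commutator_comm]; exact CfsgLib.CoprimeAction.commutator_le_left hPE)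
      refine (hPE'.trans (inf_le_pCoreOf (CfsgLib.Cores.isPGroup_pCore p G) hEP)).trans ?_
      intro q hq w hw
      exact ((omegaOneCenter_le _ (hWW hw)).2 q hq).symm
    have h3 := Subgroup.commutator_commutator_eq_bot_of_rotate (H₁ := E) (H₂ := WE) (H₃ := P) h1 h2
    rwa [Subgroup.commutator_comm E WE, hWEE] at h3
  · exfalso
    refine hne (eq_bot_of_le_commutator hWEp (CfsgLib.Cores.isPGroup_pCore p G) hPWE ?_)
    show ⁅W, E⁆ ≤ ⁅WE, P⁆
    rw [Subgroup.commutator_le]
    intro w hw e he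
    have hcomm : ⁅WE, P⁆ ≤ Subgroup.normalizer (Z : Set G) := fun y hy => by
      refine Subgroup.mem_normalizer_fintype fun z hz => ?_
      have hyz : z * y = y * z := (omegaOneCenter_le _ (hWW (hle1 hy))).2 z (omegaOneCenter_le _ hz.1).1
      rw [← hyz, mul_inv_cancel_right]; exact hz
    obtain ⟨y, hy, z, hz, rfl⟩ : ∃ y ∈ ⁅WE, P⁆, ∃ z ∈ Z, y * z = w := by
      have hw' : w ∈ ((⁅WE, P⁆ ⊔ Z : Subgroup G) : Set G) := by rw [h]; exact hw
      rw [Subgroup.coe_mul_of_left_le_normalizer_right _ _ hcomm] at hw'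
      exact hw'
    rw [show ⁅y * z, e⁆ = ⁅y, e⁆ by
      rw [commutatorElement_def, commutatorElement_def, mul_assoc y z e, (hz.2 e he).symm]
      group]
    rw [commutatorElement_def, show y * e * y⁻¹ * e⁻¹ = y * (e * y⁻¹ * e⁻¹) by group]
    exact mul_mem hy ((Subgroup.mem_normalizer_iff.1 (hEC he) _).1 (inv_mem hy))

/-- `W_E ≤ Ω₁(Z(O_p(G)))`. -/
theorem commutator_le_omegaOneCenter_pCore (hG : Subgroup.centralizer (pCore p G : Set G) ≤ pCore p G)
    (T : Sylow p G) {E : Subgroup G} (hE : IsBaumannBlock p (T : Subgroup G) E) :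
    ⁅omegaOneCenter p (pCoreOf p E), E⁆ ≤ omegaOneCenter p (pCore p G) := by
  have hc := Subgroup.commutator_eq_bot_iff_le_centralizer.1 (commutator_pCore_eq_bot T hE)
  intro w hw
  refine CfsgLib.ThompsonJ.mem_omegaOne ⟨hG (hc hw), hc hw⟩ ?_
  exact (CfsgLib.ThompsonJ.isElementaryAbelian_omegaOne
    (CfsgLib.ThompsonJ.inf_centralizer_le_centralizer_self _) (p := p)).2 w ((block_module_facts hE).2.1 hw)

theorem commutator_thompson_ne_bot (hG : Subgroup.centralizer (pCore p G : Set G) ≤ pCore p G)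
    (T : Sylow p G) {E : Subgroup G} (hE : IsBaumannBlock p (T : Subgroup G) E) :
    ⁅⁅omegaOneCenter p (pCoreOf p E), E⁆, thompsonSubgroupOf p (T : Subgroup G)⁆ ≠ ⊥ := by
  obtain ⟨hWEE, hWW, hne, -⟩ := block_module_facts hE
  intro h
  set WE := ⁅omegaOneCenter p (pCoreOf p E), E⁆
  set B := baumannSubgroupOf p (T : Subgroup G)
  have hc := Subgroup.commutator_eq_bot_iff_le_centralizer.1 h
  have hWZ : WE ≤ omegaOne p (centerThompsonOf p (T : Subgroup G)) := by
    intro w hw
    refine CfsgLib.ThompsonJ.omegaOne_inf_centralizer_le_thompsonSubgroupOf _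
      (CfsgLib.ThompsonJ.mem_omegaOne ⟨?_, hc hw⟩ ?_)
    · exact CfsgLib.Cores.pCore_le_sylow T ((omegaOneCenter_le _ (commutator_le_omegaOneCenter_pCore hG T hE hw)).1)
    · exact (CfsgLib.ThompsonJ.isElementaryAbelian_omegaOne
        (CfsgLib.ThompsonJ.inf_centralizer_le_centralizer_self _) (p := p)).2 w (hWW hw)
  have hBW : ⁅B, WE⁆ = ⊥ := by
    rw [Subgroup.commutator_eq_bot_iff_le_centralizer]
    exact fun b hb w hw => hb.2 w (hWZ hw)
  have h1 : ⁅⁅B, WE⁆, E⁆ = ⊥ := by rw [hBW, Subgroup.commutator_bot_left]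
  have h2 : ⁅⁅WE, E⁆, B⁆ = ⊥ := by rw [hWEE, Subgroup.commutator_comm, hBW]
  have h3 := Subgroup.commutator_commutator_eq_bot_of_rotate (H₁ := E) (H₂ := B) (H₃ := WE) h1 h2
  rw [hE.2.1, Subgroup.commutator_comm, hWEE] at h3
  exact hne h3

end CfsgLib.TwoGroupTricks
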