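import Mathlib

/-!
A transfer argument for a maximal subgroup `M` and a subgroup `H` of prime index normal in it.
-/

set_option autoImplicit false

namespace CfsgLib.TwoGroupTricks

open Subgroup

variable {G : Type*} [Group G]

theorem eq_or_eq_of_relIndex_prime {H X M : Subgroup G} (hHX : H ≤ X) (hXM : X ≤ M)
    (hq : (H.relIndex M).Prime) : X = H ∨ X = M := by
  rcases hq.eq_one_or_self_of_dvd _ (Dvd.intro _ (relIndex_mul_relIndex H X M hHX hXM)) with h | h
  · exact Or.inl (le_antisymm (relIndex_eq_one.1 h) hHX)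
  · refine Or.inr (le_antisymm hXM (relIndex_eq_one.1 ?_))
    have := relIndex_mul_relIndex H X M hHX hXM
    rw [h] at this
    exact Nat.eq_of_mul_eq_mul_left hq.pos (by rw [this, mul_one])

/-- Outside `M`, conjugation cannot move elements of `M` into `M \ H`. -/
theorem conj_mem_of_chain [Finite G] {H M : Subgroup G} (hmax : IsCoatom M)
    (hMn : Subgroup.normalizer (M : Set G) = M) (hHM : H ≤ M) (hn : M ≤ Subgroup.normalizer (H : Set G))
    (hq : (H.relIndex M).Prime)
    (hK : ∀ g : G, (H ⊔ H.map (MulAut.conj g).toMonoidHom).Normal →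
      H ⊔ H.map (MulAut.conj g).toMonoidHom ≤ M)
    {g : G} (hg : g ∉ M) {m : G} (hm : m ∈ M) (hmH : m ∉ H) (hmg : g⁻¹ * m * g ∈ M) :
    g⁻¹ * m * g ∈ H := by
  set K := H ⊔ H.map (MulAut.conj g).toMonoidHom with hKdef
  -- `m` normalizes `K`
  have hconj : ∀ a : G, a ∈ Subgroup.normalizer (H : Set G) →
      H.map (MulAut.conj a).toMonoidHom = H := by
    intro a ha
    exact Subgroup.mem_normalizer_iff_map_conj_eq.1 ha
  have hmK : K.map (MulAut.conj m).toMonoidHom = K := by
    rw [hKdef, Subgroup.map_sup, hconj m (hn hm), Subgroup.map_map]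
    have : (MulAut.conj m).toMonoidHom.comp (MulAut.conj g).toMonoidHom =
        (MulAut.conj g).toMonoidHom.comp (MulAut.conj (g⁻¹ * m * g)).toMonoidHom := by
      ext a
      simp [mul_assoc]
    rw [this, ← Subgroup.map_map, hconj _ (hn hmg)]
  have hMK : M ≤ Subgroup.normalizer (K : Set G) := by
    set X := M ⊓ Subgroup.normalizer (K : Set G)
    have hHX : H ≤ X := le_inf hHM (le_sup_left.trans Subgroup.le_normalizer)
    rcases eq_or_eq_of_relIndex_prime hHX inf_le_left hq with h | h
    · exact absurd (h ▸ (⟨hm, Subgroup.mem_normalizer_iff_map_conj_eq.2 hmK⟩ : m ∈ X)) hmH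
    · exact h ▸ inf_le_right
  have hKM : K ≤ M := by
    rcases eq_or_lt_of_le hMK with h | h
    · exact h ▸ Subgroup.le_normalizer
    · exact hK g (Subgroup.normalizer_eq_top_iff.1 (hmax.2 _ h))
  -- the subgroup of `M` mapped into `M`
  set Y := M ⊓ M.comap (MulAut.conj g).toMonoidHom with hY
  have hHY : H ≤ Y := le_inf hHM fun h hh => hKM (le_sup_right (a := H) (Subgroup.mem_map_of_mem _ hh))
  rcases eq_or_eq_of_relIndex_prime hHY inf_le_left hq with h | h
  · rw [← h]
    refine ⟨hmg, ?_⟩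
    simpa [mul_assoc] using hm
  · exfalso
    apply hg
    rw [← hMn, Subgroup.mem_normalizer_iff_map_conj_eq]
    have hle : M.map (MulAut.conj g).toMonoidHom ≤ M := by
      rintro _ ⟨a, ha, rfl⟩
      rw [← h] at ha
      exact ha.2
    exact Subgroup.eq_of_le_of_card_ge hle
      (Subgroup.card_map_of_injective (f := (MulAut.conj g).toMonoidHom) (MulAut.conj g).injective).ge

/-- The transfer into the quotient of `M` by `H` is nontrivial and agrees with the obvious map at some element. -/
theorem exists_transfer_eq [Finite G] {H M : Subgroup G} (hmax : IsCoatom M)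
    (hMn : Subgroup.normalizer (M : Set G) = M) (hHM : H ≤ M) (hn : M ≤ Subgroup.normalizer (H : Set G))
    (hq : (H.relIndex M).Prime)
    (hK : ∀ g : G, (H ⊔ H.map (MulAut.conj g).toMonoidHom).Normal →
      H ⊔ H.map (MulAut.conj g).toMonoidHom ≤ M)
    {A : Type*} [CommGroup A] (ψ : M →* A) (hψ : ∀ m : M, ψ m = 1 ↔ (m : G) ∈ H) :
    ∃ m : G, MonoidHom.transfer ψ m ≠ 1 := by
  classical
  set q := H.relIndex M with hqdef
  have : Fact q.Prime := ⟨hq⟩
  -- a `q`-element outside `H` of least order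
  have hex : ∃ k : ℕ, ∃ m ∈ M, m ∉ H ∧ orderOf m = q ^ k := by
    obtain ⟨S⟩ : Nonempty (Sylow q M) := inferInstance
    by_contra! hno
    have hle : (S : Subgroup M) ≤ H.subgroupOf M := by
      intro s hs
      by_contra hsH
      obtain ⟨k, hk⟩ := IsPGroup.iff_orderOf.1 S.2 ⟨s, hs⟩
      rw [Subgroup.orderOf_mk, ← Subgroup.orderOf_coe] at hk
      exact hno k s s.2 hsH hk
    have h1 : (H.subgroupOf M).index ∣ (S : Subgroup M).index := Subgroup.index_dvd_of_le hle
    exact S.not_dvd_index h1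
  obtain ⟨m, hm, hmH, hord⟩ := Nat.find_spec hex
  set k := Nat.find hex
  refine ⟨m, ?_⟩
  have hmin : ∀ y ∈ M, ∀ j, orderOf y = q ^ j → j < k → y ∈ H := fun y hy j hj hjk => by
    by_contra hyH
    exact Nat.find_min hex hjk ⟨y, hy, hyH, hj⟩
  have := Fintype.ofFinite (Quotient (MulAction.orbitRel (Subgroup.zpowers m) (G ⧸ M)))
  rw [MonoidHom.transfer_eq_prod_quotient_orbitRel_zpowers_quot]
  set q0 : Quotient (MulAction.orbitRel (Subgroup.zpowers m) (G ⧸ M)) := Quotient.mk'' ((1 : G) : G ⧸ M)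
  rw [Finset.prod_eq_single q0]
  · -- the orbit of the base point
    have hfix : q0.out = ((1 : G) : G ⧸ M) := by
      have h1 : Quotient.mk'' q0.out = q0 := Quotient.out_eq' q0
      obtain ⟨⟨z, hz⟩, hzz⟩ := Quotient.eq''.1 h1
      rw [← hzz]
      change ((z * 1 : G) : G ⧸ M) = _
      rw [QuotientGroup.eq]
      simpa using (Subgroup.zpowers_le.2 hm) hz
    have hper : Function.minimalPeriod (m • ·) q0.out = 1 := by
      rw [Function.minimalPeriod_eq_one_iff_isFixedPt, hfix]
      change ((m * 1 : G) : G ⧸ M) = _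
      rw [QuotientGroup.eq]
      simpa using hm
    have hr : q0.out.out ∈ M := by
      have h1 : ((q0.out.out : G) : G ⧸ M) = ((1 : G) : G ⧸ M) := by rw [QuotientGroup.out_eq', hfix]
      rw [QuotientGroup.eq, mul_one] at h1
      simpa using inv_mem h1
    intro h1
    apply hmH
    rw [hψ] at h1
    simp only [hper, pow_one] at h1
    have := (Subgroup.mem_normalizer_iff.1 (hn hr) _).1 h1
    simpa [mul_assoc] using this
  · intro o _ ho
    rw [hψ]
    set g := o.out.out with hgdef
    set n := Function.minimalPeriod (m • ·) o.out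
    have hgM : g ∉ M := by
      intro hg
      apply ho
      have h1 : o.out = ((1 : G) : G ⧸ M) := by
        rw [← QuotientGroup.out_eq' o.out, QuotientGroup.eq, mul_one]
        exact inv_mem hg
      rw [← Quotient.out_eq' o, h1]
    have hyM : g⁻¹ * m ^ n * g ∈ M := QuotientGroup.out_conj_pow_minimalPeriod_mem M m o.out
    show g⁻¹ * m ^ n * g ∈ H
    by_cases hy : m ^ n ∈ H
    · obtain ⟨j, hjk, hj⟩ : ∃ j ≤ k, orderOf (m ^ n) = q ^ j :=
        (Nat.dvd_prime_pow hq).1 (hord ▸ orderOf_pow_dvd n)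
      have hord' : orderOf (g⁻¹ * m ^ n * g) = q ^ j := by
        rw [← hj]
        simpa [MulAut.conj_apply, mul_assoc] using
          orderOf_injective (MulAut.conj g⁻¹).toMonoidHom (MulAut.conj g⁻¹).injective (m ^ n)
      refine hmin _ hyM j hord' (lt_of_le_of_ne hjk fun he => hmH ?_)
      have heq : Subgroup.zpowers (m ^ n) = Subgroup.zpowers m :=
        Subgroup.eq_of_le_of_card_ge ((Subgroup.zpowers_le).2 (pow_mem (Subgroup.mem_zpowers m) n))
          (by rw [Nat.card_zpowers, Nat.card_zpowers, hord, hj, he])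
      exact (Subgroup.zpowers_le.2 hy) (heq ▸ Subgroup.mem_zpowers m)
    · exact conj_mem_of_chain hmax hMn hHM hn hq hK hgM (pow_mem hm n) hy hyM
  · intro h
    exact absurd (Finset.mem_univ _) h

/-- If all pairs of conjugates meet `M` in `H`, the transfer is trivial on the conjugates of `H`. -/
theorem transfer_eq_one_of_mem [Finite G] {H M : Subgroup G}
    (hcl : ∀ g : G, (H ⊔ H.map (MulAut.conj g).toMonoidHom) ⊓ M = H)
    {A : Type*} [CommGroup A] (ψ : M →* A) (hψ : ∀ m : M, ψ m = 1 ↔ (m : G) ∈ H) {h : G} (hh : h ∈ H) :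
    MonoidHom.transfer ψ h = 1 := by
  classical
  have := Fintype.ofFinite (Quotient (MulAction.orbitRel (Subgroup.zpowers h) (G ⧸ M)))
  rw [MonoidHom.transfer_eq_prod_quotient_orbitRel_zpowers_quot]
  refine Finset.prod_eq_one fun o _ => ?_
  rw [hψ]
  show o.out.out⁻¹ * h ^ Function.minimalPeriod (h • ·) o.out * o.out.out ∈ H
  rw [← hcl o.out.out⁻¹]
  exact ⟨le_sup_right (a := H) (⟨_, pow_mem hh (Function.minimalPeriod (h • ·) o.out), by simp [mul_assoc]⟩ :
      o.out.out⁻¹ * h ^ Function.minimalPeriod (h • ·) o.out * o.out.out ∈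
        H.map (MulAut.conj o.out.out⁻¹).toMonoidHom),
    QuotientGroup.out_conj_pow_minimalPeriod_mem M h o.out⟩

end CfsgLib.TwoGroupTricks
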