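import Cfsg.Agent.Lib.TwoGroupTricks.PushingUpCL
import Cfsg.Agent.Lib.TwoGroupTricks.BaumannNormal
import Cfsg.Agent.Lib.Quasithin.CharP
import Cfsg.Agent.Lib.Transfer.Residual
import Cfsg.Agent.Lib.PGroups.Frattini

/-!
Pushing up, continued: `Z(O_p(G)) = Z(S) Ω₁(V)` and replacement of minimal centrally large subgroups
with largest `Ω₁(Z(Q))` by ones inside `O_p(G)`.
-/

set_option autoImplicit false

namespace CfsgLib.TwoGroupTricks.PushingUp

open Cfsg
open scoped commutatorElement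

universe u

variable {G : Type u} [Group G] [Finite G] {p : ℕ} [hp : Fact p.Prime]

omit [Finite G] in
/-- An element of order prime to `p` centralizing `Ω₁` of an abelian normal `p`-subgroup centralizes it. -/
theorem commute_of_commute_omegaOne {V : Subgroup G} [V.Normal] (hVp : IsPGroup p V)
    (hVab : V ≤ Subgroup.centralizer (V : Set G)) {y : G} (hy : (orderOf y).Coprime p)
    (h : ∀ v ∈ V, v ^ p = 1 → y * v * y⁻¹ = v) : ∀ v ∈ V, y * v * y⁻¹ = v := by
  suffices key : ∀ k, ∀ v ∈ V, v ^ p ^ k = 1 → y * v * y⁻¹ = v by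
    intro v hv
    obtain ⟨k, hk⟩ := hVp ⟨v, hv⟩
    exact key k v hv (by simpa using congrArg Subtype.val hk)
  intro k
  induction k with
  | zero => intro v _ hv; simp at hv; simp [hv]
  | succ k ih =>
    intro v hv hpow
    set c := v⁻¹ * (y * v * y⁻¹) with hc
    have hcV : c ∈ V := V.mul_mem (V.inv_mem hv) ((inferInstance : V.Normal).conj_mem v hv y)
    have hcomm : Commute v⁻¹ (y * v * y⁻¹) :=
      (hVab ((inferInstance : V.Normal).conj_mem v hv y)) _ (V.inv_mem hv)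
    have hcp : c ^ p = 1 := by
      rw [hc, hcomm.mul_pow, conj_pow, ih (v ^ p) (V.pow_mem hv p) (by rw [← pow_mul, ← pow_succ', hpow]),
        inv_pow, inv_mul_cancel]
    have := CfsgLib.Quasithin.commute_of_fixed_commutator (v := v) hy (by rw [hc, mul_inv_cancel_left])
      (h c hcV hcp) ⟨1, by rw [pow_one]; exact hcp⟩
    rw [this, mul_inv_cancel_right]

/-- `Z(O_p(G)) = Z(S) Ω₁(V)`, where `V` is the normal closure of `Z(S)`. -/
theorem exists_omega_decomp (S : Subgroup G) (hE : IsPushingUpSituation p S)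
    (hJ : S ≤ Subgroup.centralizer (centerThompsonAOf S : Set G))
    (hnZ : ¬ (S ⊓ Subgroup.centralizer (S : Set G)).Normal) (hnS : ¬ S.Normal) :
    ∃ V₁ : Subgroup G, V₁.Normal ∧ V₁ ≤ pCore p G ⊓ Subgroup.centralizer (pCore p G : Set G) ∧
      (∀ v ∈ V₁, v ^ p = 1) ∧ IsCentrallyLarge ((pCore p G).subgroupOf S) ∧
      pCore p G ⊓ Subgroup.centralizer (pCore p G : Set G) ≤ (S ⊓ Subgroup.centralizer (S : Set G)) ⊔ V₁ := by
  set ZS := S ⊓ Subgroup.centralizer (S : Set G) with hZS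
  rcases normal_or_pCore_centrallyLarge S hE hJ ZS le_rfl with h | h | ⟨hCL, hC⟩
  · exact absurd h hnZ
  · exact absurd h hnS
  obtain ⟨-, ⟨P, rfl⟩, hchar, ⟨M, ⟨hM, -⟩, huniq⟩, K, hK, F, iF, iFt, n, hF, ⟨e⟩⟩ := hE
  have huniq' : ∀ M' : Subgroup G, IsCoatom M' ∧ (P : Subgroup G) ≤ M' → M' = M := huniq
  set P0 := pCore p G with hP0
  have hP0S : P0 ≤ (P : Subgroup G) := CfsgLib.Cores.pCore_le_sylow P
  haveI : Finite F := Finite.of_fintype F
  have hF' : Nat.card F = p ^ n := by rw [Nat.card_eq_fintype_card, hF]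
  have hn : 1 ≤ n := by
    rcases n with _ | n
    · have := Fintype.one_lt_card (α := F); rw [hF, pow_zero] at this; omega
    · omega
  set f := e.toMonoidHom.comp (QuotientGroup.mk' K)
  have hf : Function.Surjective f := e.surjective.comp (QuotientGroup.mk'_surjective K)
  set V := Subgroup.normalClosure (ZS : Set G) with hV
  have hZSP : ZS ≤ P0 ⊓ Subgroup.centralizer (P0 : Set G) := by
    intro z hz
    have hc : z ∈ Subgroup.centralizer (P0 : Set G) :=
      Subgroup.centralizer_le (SetLike.coe_subset_coe.2 hP0S) hz.2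
    exact ⟨hchar hc, hc⟩
  haveI : (P0 ⊓ Subgroup.centralizer (P0 : Set G)).Normal := inferInstance
  have hVP : V ≤ P0 ⊓ Subgroup.centralizer (P0 : Set G) :=
    Subgroup.normalClosure_le_normal (SetLike.coe_subset_coe.2 hZSP)
  haveI : V.Normal := Subgroup.normalClosure_normal
  have hVp : IsPGroup p V := (CfsgLib.Cores.isPGroup_pCore p G).to_le (hVP.trans inf_le_left)
  have hVab : V ≤ Subgroup.centralizer (V : Set G) :=
    (hVP.trans inf_le_right).trans (Subgroup.centralizer_le (SetLike.coe_subset_coe.2 (hVP.trans inf_le_left)))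
  set V₁ := omegaOne p V with hV₁
  have hV₁V : V₁ ≤ V := omegaOne_subset_self V
  haveI hV₁n : V₁.Normal := by
    rw [← Subgroup.normalizer_eq_top_iff, eq_top_iff]
    exact le_trans (by rw [Subgroup.normalizer_eq_top]) (normalizer_le_normalizer_omegaOne' V)
  have hV₁exp : ∀ v ∈ V₁, v ^ p = 1 :=
    (CfsgLib.ThompsonJ.isElementaryAbelian_omegaOne hVab (p := p)).2
  have hV₁ab : V₁ ≤ Subgroup.centralizer (V₁ : Set G) :=
    (hV₁V.trans hVab).trans (Subgroup.centralizer_le (SetLike.coe_subset_coe.2 hV₁V))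
  have hCV : (P : Subgroup G) ⊔ Subgroup.centralizer (V₁ : Set G) ≠ ⊤ := by
    intro htop
    set C₁ := Subgroup.centralizer (V₁ : Set G)
    haveI : C₁.Normal := inferInstance
    haveI : (Subgroup.centralizer (V : Set G)).Normal := inferInstance
    obtain ⟨Q, hQ⟩ := CfsgLib.StronglyPEmbedded.exists_sylow_subgroupOf_eq P (A := C₁)
      (Subgroup.Normal.isSubnormal inferInstance)
    have h1 := congrArg (Subgroup.map C₁.subtype) (CfsgLib.Transfer.sylow_sup_pResidual_eq_top Q)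
    rw [Subgroup.map_sup, hQ, Subgroup.subgroupOf_map_subtype, ← MonoidHom.range_eq_map,
      Subgroup.range_subtype] at h1
    have h2 : (pResidual p C₁).map C₁.subtype ≤ Subgroup.centralizer (V : Set G) := by
      rw [pResidual, MonoidHom.map_closure, Subgroup.closure_le]
      rintro _ ⟨y, hy, rfl⟩
      refine Subgroup.mem_centralizer_iff.2 fun v hv => ?_
      refine (mul_inv_eq_iff_eq_mul.1 (commute_of_commute_omegaOne hVp hVab
        (by rw [Subgroup.subtype_apply, Subgroup.orderOf_coe]; exact hy) (fun w hw hwp => ?_) v hv)).symm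
      exact mul_inv_eq_iff_eq_mul.2 ((y.2) w (CfsgLib.ThompsonJ.mem_omegaOne hw hwp)).symm
    have h3 : (P : Subgroup G) ⊔ Subgroup.centralizer (V : Set G) = ⊤ :=
      top_le_iff.1 (htop ▸ sup_le le_sup_left (h1.symm.le.trans
        (sup_le (inf_le_left.trans le_sup_left) (h2.trans le_sup_right))))
    apply hnS
    have hp1 : (P : Subgroup G) ⊓ Subgroup.centralizer (V : Set G) ≤ P0 := hC
    -- `V` is centralized by `P ⊔ C(V) = G`, so `Z(S)` would be normal
    refine absurd ?_ hnZ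
    refine ⟨fun z hz g => ?_⟩
    have hle : (P : Subgroup G) ⊔ Subgroup.centralizer (V : Set G) ≤ Subgroup.centralizer ({z} : Set G) := by
      refine sup_le (fun s hs => Subgroup.mem_centralizer_iff.2 ?_) (Subgroup.centralizer_le ?_)
      · rintro u (rfl : u = z)
        exact (hz.2 s hs).symm
      · rintro u (rfl : u = z)
        exact Subgroup.subset_normalClosure hz
    have := (hle (h3 ▸ Subgroup.mem_top g)) z rfl
    rwa [← this, mul_inv_cancel_right]
  refine ⟨V₁, hV₁n, hV₁V.trans hVP, hV₁exp, hCL, ?_⟩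
  obtain ⟨hbS, -⟩ := card_le_mul_pCore P hM huniq' hn hF' f hf
  have hbV := card_bound P hM huniq' hn hF' f hf V₁ (hVp.to_le hV₁V) hV₁ab hnS hCV
  set U := ZS ⊔ V₁
  have hU : U ≤ P0 ⊓ Subgroup.centralizer (P0 : Set G) := sup_le hZSP (hV₁V.trans hVP)
  have hprod := CfsgLib.ThompsonJ.card_sup_mul_card_inf ZS V₁
    (by rw [Subgroup.normalizer_eq_top]; exact le_top)
  have hinf : Nat.card ↥(ZS ⊓ V₁) ≤ Nat.card ↥(V₁ ⊓ Subgroup.centralizer ((P : Subgroup G) : Set G)) :=
    Subgroup.card_le_of_le (le_inf inf_le_right (inf_le_left.trans inf_le_right))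
  have hUb : p ^ n * Nat.card ZS ≤ Nat.card U := by
    refine Nat.le_of_mul_le_mul_right ?_ (Nat.card_pos (α := ↥(ZS ⊓ V₁)))
    rw [hprod]
    calc p ^ n * Nat.card ZS * Nat.card ↥(ZS ⊓ V₁) = Nat.card ZS * (p ^ n * Nat.card ↥(ZS ⊓ V₁)) := by ring
      _ ≤ Nat.card ZS * Nat.card V₁ := Nat.mul_le_mul_left _ ((Nat.mul_le_mul_left _ hinf).trans hbV)
  have htop := isCentrallyLarge_top (P : Subgroup G) P.2 hJ
  unfold IsCentrallyLarge at htop hCL
  rw [← htop, card_center_top, Subgroup.card_top,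
    Nat.card_congr (Subgroup.subgroupOfEquivOfLe hP0S).toEquiv] at hCL
  refine (Subgroup.eq_of_le_of_card_ge hU (Nat.le_of_mul_le_mul_left ?_ (Nat.card_pos (α := P0)))).ge
  have hcen : Nat.card ↥(P0 ⊓ Subgroup.centralizer (P0 : Set G)) ≤
      Nat.card (Subgroup.center (P0.subgroupOf (P : Subgroup G))) := by
    refine Nat.card_le_card_of_injective (fun z : ↥(P0 ⊓ Subgroup.centralizer (P0 : Set G)) =>
      (⟨⟨⟨(z : G), hP0S z.2.1⟩, z.2.1⟩, Subgroup.mem_center_iff.2 fun w =>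
        Subtype.ext (Subtype.ext (z.2.2 _ w.2))⟩ : Subgroup.center (P0.subgroupOf (P : Subgroup G)))) ?_
    intro a b h
    exact Subtype.ext (congrArg (fun w : Subgroup.center (P0.subgroupOf (P : Subgroup G)) =>
      (((w : P0.subgroupOf (P : Subgroup G)) : (P : Subgroup G)) : G)) h)
  calc Nat.card P0 * Nat.card ↥(P0 ⊓ Subgroup.centralizer (P0 : Set G))
      ≤ Nat.card P * Nat.card ZS := (Nat.mul_le_mul_left _ hcen).trans hCL.le
    _ ≤ p ^ n * Nat.card P0 * Nat.card ZS := Nat.mul_le_mul_right _ hbS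
    _ = Nat.card P0 * (p ^ n * Nat.card ZS) := by ring
    _ ≤ Nat.card P0 * Nat.card U := Nat.mul_le_mul_left _ hUb

variable {P : Type u} [Group P] [Finite P]

/-- Replacement inside the centrally large normal subgroup `P₀` with `Z(P₀) = Z(P) V₁`. -/
theorem exists_omega_replacement (hP : IsPGroup p P) (P₀ V₁ : Subgroup P) [P₀.Normal] [V₁.Normal]
    (hP₀ : IsCentrallyLarge P₀) (hVP : V₁ ≤ P₀ ⊓ Subgroup.centralizer (P₀ : Set P))
    (hexp : ∀ v ∈ V₁, v ^ p = 1)
    (hdec : P₀ ⊓ Subgroup.centralizer (P₀ : Set P) ≤ Subgroup.center P ⊔ V₁) {Q : Subgroup P}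
    (hQ : IsMinimalCentrallyLarge Q)
    (hmax : ∀ R : Subgroup P, IsMinimalCentrallyLarge R →
      Nat.card ↥(omegaOneCenter p R) ≤ Nat.card ↥(omegaOneCenter p Q)) :
    ∃ R : Subgroup P, IsMinimalCentrallyLarge R ∧ R ≤ P₀ ∧
      Nat.card ↥(omegaOneCenter p R) = Nat.card ↥(omegaOneCenter p Q) ∧
      (frattini ↥Q).map Q.subtype ≤ (frattini ↥R).map R.subtype := by
  obtain ⟨Q₁, hQ₁P, hQ₁⟩ := exists_minimalCentrallyLarge_le hP₀
  obtain ⟨hQl, hQc⟩ := (isCentrallyLarge_iff Q).1 hQ.1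
  set CQ := Subgroup.centralizer (Q : Set P) with hCQ
  set QP := Q ⊓ P₀ with hQP
  set ΩQ := omegaOneCenter p Q with hΩQ
  have hΩC : ΩQ ≤ Q ⊓ CQ := omegaOne_subset_self _
  have hΩexp : ∀ z ∈ ΩQ, z ^ p = 1 :=
    (CfsgLib.ThompsonJ.isElementaryAbelian_omegaOne
      (CfsgLib.ThompsonJ.inf_centralizer_le_centralizer_self Q) (p := p)).2
  set W := V₁ ⊓ CQ with hW
  -- `V₁ ∩ Q ≤ W`
  have hVQ : V₁ ⊓ Q ≤ W := by
    rintro v ⟨hv, hvQ⟩
    refine ⟨hv, Subgroup.mem_centralizer_iff.2 fun q hq => ?_⟩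
    have hle : Q ≤ Subgroup.centralizer ({v} : Set P) := by
      refine (minimal_inf_sup hQ hQ₁.1).symm.le.trans (sup_le (fun x hx => ?_) fun x hx => ?_)
      · refine Subgroup.mem_centralizer_iff.2 ?_
        rintro u (rfl : u = v)
        exact ((hVP hv).2 x (hQ₁P hx.2)).symm
      · refine Subgroup.mem_centralizer_iff.2 ?_
        rintro u (rfl : u = v)
        exact hx u hvQ
    exact (hle hq v rfl).symm
  have hN : ∀ A B : Subgroup P, B.Normal → A ≤ Subgroup.normalizer (B : Set P) := fun A B hB => by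
    haveI := hB
    rw [Subgroup.normalizer_eq_top]; exact le_top
  have pos : ∀ A : Subgroup P, 0 < Nat.card A := fun A => Nat.card_pos
  -- (A): `|Q| |W| ≤ |V₁| |Q ∩ P₀|`
  have hA : Nat.card Q * Nat.card W ≤ Nat.card V₁ * Nat.card QP := by
    set X := Q ⊔ P₀
    set ZP := P₀ ⊓ Subgroup.centralizer (P₀ : Set P) with hZP
    set Y := ZP ⊓ CQ
    set Zc := Subgroup.center P
    have hX : Nat.card X * Nat.card QP = Nat.card Q * Nat.card P₀ :=
      CfsgLib.ThompsonJ.card_sup_mul_card_inf Q P₀ (hN _ _ inferInstance)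
    have hYc : Y ≤ X ⊓ Subgroup.centralizer (X : Set P) := by
      refine le_inf ((inf_le_left.trans inf_le_left).trans le_sup_right) ?_
      rw [CfsgLib.Replacement.centralizer_sup]
      exact le_inf inf_le_right (inf_le_left.trans inf_le_right)
    have hXmax : Nat.card X * Nat.card Y ≤ Nat.card P₀ * Nat.card ZP := by
      refine (Nat.mul_le_mul_left _ (Subgroup.card_le_of_le hYc)).trans ?_
      rw [hZP, ← card_center_eq, ← card_center_eq]
      exact (le_maxCentralProduct X).trans hP₀.ge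
    have hQY : Nat.card Q * Nat.card Y ≤ Nat.card ZP * Nat.card QP := by
      refine Nat.le_of_mul_le_mul_left ?_ (pos P₀)
      calc Nat.card P₀ * (Nat.card Q * Nat.card Y) = Nat.card X * Nat.card QP * Nat.card Y := by
            rw [hX]; ring
        _ = Nat.card X * Nat.card Y * Nat.card QP := by ring
        _ ≤ Nat.card P₀ * Nat.card ZP * Nat.card QP := Nat.mul_le_mul_right _ hXmax
        _ = _ := by ring
    have hZW : Zc ⊔ W ≤ Y := by
      refine sup_le (le_inf (le_inf ?_ ?_) ?_) (inf_le_inf_right _ hVP)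
      · exact fun z hz => ((isCentrallyLarge_iff P₀).1 hP₀).2 (Subgroup.center_le_centralizer _ hz)
      · exact Subgroup.center_le_centralizer _
      · exact Subgroup.center_le_centralizer _
    have hinf : Zc ⊓ W = Zc ⊓ V₁ := le_antisymm (inf_le_inf_left _ inf_le_left)
      fun z hz => ⟨hz.1, hz.2, Subgroup.center_le_centralizer _ hz.1⟩
    have h1 := CfsgLib.ThompsonJ.card_sup_mul_card_inf W Zc (hN _ _ inferInstance)
    have h2 := CfsgLib.ThompsonJ.card_sup_mul_card_inf V₁ Zc (hN _ _ inferInstance)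
    rw [inf_comm, hinf, sup_comm] at h1
    rw [inf_comm, sup_comm] at h2
    refine Nat.le_of_mul_le_mul_left ?_ (pos Zc)
    calc Nat.card Zc * (Nat.card Q * Nat.card W)
        = Nat.card Q * (Nat.card ↥(Zc ⊔ W) * Nat.card ↥(Zc ⊓ V₁)) := by rw [h1]; ring
      _ ≤ Nat.card Q * (Nat.card Y * Nat.card ↥(Zc ⊓ V₁)) :=
          Nat.mul_le_mul_left _ (Nat.mul_le_mul_right _ (Subgroup.card_le_of_le hZW))
      _ = Nat.card Q * Nat.card Y * Nat.card ↥(Zc ⊓ V₁) := by ring
      _ ≤ Nat.card ↥(Zc ⊔ V₁) * Nat.card QP * Nat.card ↥(Zc ⊓ V₁) :=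
          Nat.mul_le_mul_right _ (hQY.trans (Nat.mul_le_mul_right _ (Subgroup.card_le_of_le hdec)))
      _ = Nat.card ↥(Zc ⊔ V₁) * Nat.card ↥(Zc ⊓ V₁) * Nat.card QP := by ring
      _ = _ := by rw [h2]; ring
  set R := QP ⊔ V₁ with hR
  have hRP : R ≤ P₀ := sup_le inf_le_right (hVP.trans inf_le_left)
  have hVc : V₁ ≤ R ⊓ Subgroup.centralizer (R : Set P) :=
    le_inf le_sup_right ((hVP.trans inf_le_right).trans (Subgroup.centralizer_le (SetLike.coe_subset_coe.2 hRP)))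
  -- a general estimate
  have hest : ∀ A : Subgroup P, A ≤ Q ⊓ P₀ →
      Nat.card A * Nat.card V₁ ≤ Nat.card ↥(A ⊔ V₁) * Nat.card W := fun A hA => by
    rw [← CfsgLib.ThompsonJ.card_sup_mul_card_inf A V₁ (hN _ _ inferInstance)]
    exact Nat.mul_le_mul_left _ (Subgroup.card_le_of_le fun v hv => hVQ ⟨hv.2, (hA hv.1).1⟩)
  have hsub : ∀ A : Subgroup P, A ≤ Q → Nat.card A * Nat.card QP ≤ Nat.card Q * Nat.card ↥(A ⊓ P₀) := by
    intro A hA
    have h1 := CfsgLib.ThompsonJ.card_sup_mul_card_inf A QP (fun a ha => by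
      refine normalizer_inf_le ⟨Subgroup.le_normalizer (hA ha), hN A P₀ inferInstance ha⟩)
    rw [show A ⊓ QP = A ⊓ P₀ from le_antisymm (inf_le_inf_left _ inf_le_right)
      (le_inf inf_le_left (le_inf (inf_le_left.trans hA) inf_le_right))] at h1
    rw [← h1]
    exact Nat.mul_le_mul_right _ (Subgroup.card_le_of_le (sup_le hA inf_le_left))
  have hgrow : ∀ A B : Subgroup P, A ≤ Q → (A ⊓ P₀) ⊔ V₁ ≤ B → Nat.card A ≤ Nat.card B := by
    intro A B hA' hB
    refine Nat.le_of_mul_le_mul_right ?_ (Nat.mul_pos (pos QP) (pos W))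
    calc Nat.card A * (Nat.card QP * Nat.card W) = Nat.card A * Nat.card QP * Nat.card W := by ring
      _ ≤ Nat.card Q * Nat.card ↥(A ⊓ P₀) * Nat.card W := Nat.mul_le_mul_right _ (hsub A hA')
      _ = Nat.card ↥(A ⊓ P₀) * (Nat.card Q * Nat.card W) := by ring
      _ ≤ Nat.card ↥(A ⊓ P₀) * (Nat.card V₁ * Nat.card QP) := Nat.mul_le_mul_left _ hA
      _ = Nat.card ↥(A ⊓ P₀) * Nat.card V₁ * Nat.card QP := by ring
      _ ≤ Nat.card ↥((A ⊓ P₀) ⊔ V₁) * Nat.card W * Nat.card QP :=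
          Nat.mul_le_mul_right _ (hest _ (inf_le_inf_right _ hA'))
      _ ≤ Nat.card B * Nat.card W * Nat.card QP :=
          Nat.mul_le_mul_right _ (Nat.mul_le_mul_right _ (Subgroup.card_le_of_le hB))
      _ = _ := by ring
  have hcardR : Nat.card Q ≤ Nat.card R := hgrow Q R le_rfl le_rfl
  have hcenR : Nat.card ↥(Q ⊓ CQ) ≤ Nat.card ↥(R ⊓ Subgroup.centralizer (R : Set P)) := by
    refine hgrow _ _ inf_le_left (sup_le ?_ hVc)
    rintro z ⟨⟨hzQ, hzC⟩, hzP⟩
    refine ⟨Subgroup.mem_sup_left ⟨hzQ, hzP⟩, ?_⟩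
    have hle : R ≤ Subgroup.centralizer ({z} : Set P) := by
      refine sup_le (fun x hx => ?_) fun x hx => ?_
      · refine Subgroup.mem_centralizer_iff.2 ?_
        rintro u (rfl : u = z)
        exact (hzC x hx.1).symm
      · refine Subgroup.mem_centralizer_iff.2 ?_
        rintro u (rfl : u = z)
        exact (hVP hx).2 u hzP
    exact Subgroup.mem_centralizer_iff.2 fun x hx => (hle hx z rfl).symm
  have hcard := hQ.1
  unfold IsCentrallyLarge at hcard
  rw [card_center_eq] at hcard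
  have hRmax := le_maxCentralProduct R
  rw [card_center_eq] at hRmax
  have hRCL : IsCentrallyLarge R := by
    unfold IsCentrallyLarge
    rw [card_center_eq]
    exact le_antisymm hRmax (hcard.ge.trans (Nat.mul_le_mul hcardR hcenR))
  have hRQ : Nat.card R ≤ Nat.card Q := by
    refine Nat.le_of_mul_le_mul_right ?_ (pos (Q ⊓ CQ))
    exact ((Nat.mul_le_mul_left _ hcenR).trans hRmax).trans hcard.ge
  have hRmin := isMinimal_of_card_le hQ hRCL hRQ
  have hΩR : (ΩQ ⊓ P₀) ⊔ V₁ ≤ omegaOneCenter p R := by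
    refine sup_le ?_ fun v hv => CfsgLib.ThompsonJ.mem_omegaOne (hVc hv) (hexp v hv)
    rintro z ⟨hz, hzP⟩
    have hzQ := hΩC hz
    refine CfsgLib.ThompsonJ.mem_omegaOne ⟨Subgroup.mem_sup_left ⟨hzQ.1, hzP⟩, ?_⟩ (hΩexp z hz)
    have hle : R ≤ Subgroup.centralizer ({z} : Set P) := by
      refine sup_le (fun x hx => ?_) fun x hx => ?_
      · refine Subgroup.mem_centralizer_iff.2 ?_
        rintro u (rfl : u = z)
        exact (hzQ.2 x hx.1).symm
      · refine Subgroup.mem_centralizer_iff.2 ?_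
        rintro u (rfl : u = z)
        exact (hVP hx).2 u hzP
    exact Subgroup.mem_centralizer_iff.2 fun x hx => (hle hx z rfl).symm
  have hΩeq : Nat.card ↥(omegaOneCenter p R) = Nat.card ΩQ :=
    le_antisymm (hmax R hRmin) (hgrow ΩQ _ (hΩC.trans inf_le_left) hΩR)
  -- `Q = (Q ∩ P₀) Ω₁(Z(Q))`
  have hgen : Q ≤ QP ⊔ ΩQ := by
    refine (Subgroup.eq_of_le_of_card_ge (sup_le inf_le_left (hΩC.trans inf_le_left)) ?_).ge
    have h1 := CfsgLib.ThompsonJ.card_sup_mul_card_inf ΩQ QP (fun a ha =>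
      normalizer_inf_le ⟨Subgroup.le_normalizer (hΩC ha).1, hN ΩQ P₀ inferInstance ha⟩)
    rw [sup_comm, show ΩQ ⊓ QP = ΩQ ⊓ P₀ from le_antisymm (inf_le_inf_left _ inf_le_right)
      (le_inf inf_le_left (le_inf (inf_le_left.trans (hΩC.trans inf_le_left)) inf_le_right))] at h1
    have h2 : Nat.card ↥(ΩQ ⊓ P₀) * Nat.card V₁ ≤ Nat.card ΩQ * Nat.card W :=
      (hest _ (inf_le_inf_right _ (hΩC.trans inf_le_left))).trans
        (Nat.mul_le_mul_right _ (hΩeq ▸ Subgroup.card_le_of_le hΩR))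
    refine Nat.le_of_mul_le_mul_right ?_ (Nat.mul_pos (pos (ΩQ ⊓ P₀)) (pos W))
    calc Nat.card Q * (Nat.card ↥(ΩQ ⊓ P₀) * Nat.card W)
        = Nat.card ↥(ΩQ ⊓ P₀) * (Nat.card Q * Nat.card W) := by ring
      _ ≤ Nat.card ↥(ΩQ ⊓ P₀) * (Nat.card V₁ * Nat.card QP) := Nat.mul_le_mul_left _ hA
      _ = Nat.card ↥(ΩQ ⊓ P₀) * Nat.card V₁ * Nat.card QP := by ring
      _ ≤ Nat.card ΩQ * Nat.card W * Nat.card QP := Nat.mul_le_mul_right _ h2
      _ = Nat.card ΩQ * Nat.card QP * Nat.card W := by ring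
      _ = _ := by rw [← h1]; ring
  refine ⟨R, hRmin, hRP, hΩeq, ?_⟩
  set N := (frattini ↥R).map R.subtype
  have hRp : IsPGroup p R := hP.to_subgroup R
  have hN1 : ∀ x ∈ R, x ^ p ∈ N := fun x hx =>
    ⟨(⟨x, hx⟩ : R) ^ p, CfsgLib.PGroups.pow_mem_frattini hRp _, rfl⟩
  have hN2 : ∀ x ∈ R, ∀ y ∈ R, ⁅x, y⁆ ∈ N := fun x hx y hy =>
    ⟨⁅(⟨x, hx⟩ : R), ⟨y, hy⟩⁆, CfsgLib.PGroups.commutatorElement_mem_frattini hRp _ _, rfl⟩
  have hsplit : ∀ q ∈ Q, ∃ x ∈ QP, ∃ z ∈ ΩQ, x * z = q := by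
    intro q hq
    have h := hgen hq
    have hn : QP ≤ Subgroup.normalizer (ΩQ : Set P) := fun a ha => by
      refine Subgroup.mem_normalizer_fintype fun z hz => ?_
      rw [((hΩC hz).2 a ha.1), mul_inv_cancel_right]
      exact hz
    rwa [← SetLike.mem_coe, Subgroup.coe_mul_of_left_le_normalizer_right QP ΩQ hn] at h
  rw [Subgroup.map_le_iff_le_comap]
  refine CfsgLib.PGroups.frattini_le_of (p := p) ?_ fun q => ?_
  · rw [commutator_def, Subgroup.commutator_le]
    rintro ⟨a, ha⟩ - ⟨b, hb⟩ -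
    obtain ⟨x, hx, z, hz, rfl⟩ := hsplit a ha
    obtain ⟨y, hy, w, hw, rfl⟩ := hsplit b hb
    show ⁅x * z, y * w⁆ ∈ N
    have hQm : ∀ {u : P}, u ∈ ΩQ → ∀ q ∈ Q, Commute u q := fun hu q hq => ((hΩC hu).2 q hq).symm
    have h1 : ⁅x * z, y * w⁆ = ⁅x, y⁆ := by
      have e1 := (hQm hz (y * w) (Q.mul_mem hy.1 (hΩC hw).1)).eq
      have e2 := (hQm hw x⁻¹ (Q.inv_mem hx.1)).eq
      calc ⁅x * z, y * w⁆ = x * (z * (y * w) * z⁻¹) * x⁻¹ * (y * w)⁻¹ := by
            rw [commutatorElement_def]; group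
        _ = x * y * (w * x⁻¹) * w⁻¹ * y⁻¹ := by rw [e1, mul_inv_cancel_right]; group
        _ = x * y * (x⁻¹ * w) * w⁻¹ * y⁻¹ := by rw [e2]
        _ = ⁅x, y⁆ := by rw [commutatorElement_def]; group
    rw [h1]
    exact hN2 x (Subgroup.mem_sup_left hx) y (Subgroup.mem_sup_left hy)
  · obtain ⟨x, hx, z, hz, hxz⟩ := hsplit q q.2
    show ((q ^ p : Q) : P) ∈ N
    rw [SubgroupClass.coe_pow, ← hxz, (show Commute x z from (hΩC hz).2 x hx.1).mul_pow,
      hΩexp z hz, mul_one]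
    exact hN1 x (Subgroup.mem_sup_left hx)

end CfsgLib.TwoGroupTricks.PushingUp

namespace CfsgLib.TwoGroupTricks.PushingUp

open Cfsg

variable {G H : Type*} [Group G] [Group H]

theorem map_omegaOneCenter {p : ℕ} {f : G →* H} (hf : Function.Injective f) (X : Subgroup G) :
    (omegaOneCenter p X).map f = omegaOneCenter p (X.map f) := by
  rw [omegaOneCenter, omegaOneCenter, CfsgLib.ThompsonJ.map_omegaOne hf]
  congr 1
  ext y
  constructor
  · rintro ⟨x, ⟨hx, hxc⟩, rfl⟩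
    refine ⟨⟨x, hx, rfl⟩, ?_⟩
    rintro _ ⟨z, hz, rfl⟩
    rw [← map_mul, ← map_mul, hxc z hz]
  · rintro ⟨⟨x, hx, rfl⟩, hxc⟩
    exact ⟨x, ⟨hx, fun z hz => hf (by rw [map_mul, map_mul]; exact hxc _ ⟨z, hz, rfl⟩)⟩, rfl⟩

theorem map_frattini_map [Finite G] {p : ℕ} [Fact p.Prime] {f : G →* H} (hf : Function.Injective f)
    (X : Subgroup G) (hX : IsPGroup p X) :
    ((frattini ↥X).map X.subtype).map f = (frattini ↥(X.map f)).map (X.map f).subtype := by
  have h := CfsgLib.PGroups.map_frattini_eq hX (X.equivMapOfInjective f hf).toMonoidHom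
    (X.equivMapOfInjective f hf).surjective
  rw [← h, Subgroup.map_map, Subgroup.map_map]
  rfl

end CfsgLib.TwoGroupTricks.PushingUp
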